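import Cfsg.Agent.NA9.C1

/-! Six generalized characters of `3³ : S₄` vanishing outside the special classes -/

set_option autoImplicit false

namespace Cfsg.Agent.NA9

open Cfsg Cfsg.Agent.H4 Equiv Finset
open scoped ComplexConjugate

def zl (l : List ℤ) : List (ℤ × ℤ) := l.map fun a => (a, 0)

def x1 := zl [1, 1, 1, 1, 1, 1, 1, 1, 1, 1, 1, 1, 1, 1]
def xs := zl [1, 1, 1, 1, 1, 1, -1, -1, -1, -1, -1, 1, 1, 1]
def p4 := zl [4, 4, 4, 4, 0, 0, 2, 2, 0, 0, 0, 1, 1, 1]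
def q4 := zl [4, 4, 4, 4, 0, 0, -2, -2, 0, 0, 0, 1, 1, 1]
def p3 := zl [3, 3, 3, 3, 3, 3, 1, 1, 1, 1, 1, 0, 0, 0]
def a0 := zl [6, 3, 0, -3, 2, -1, 0, 0, 2, -1, -1, 0, 0, 0]
def a2 := zl [6, 3, 0, -3, 2, -1, 0, 0, -2, 1, 1, 0, 0, 0]
def a1 : List (ℤ × ℤ) := [(6, 0), (3, 0), (0, 0), (-3, 0), (-2, 0), (1, 0), (0, 0), (0, 0), (0, 0),
  (0, -1), (0, 1), (0, 0), (0, 0), (0, 0)]
def a3 : List (ℤ × ℤ) := [(6, 0), (3, 0), (0, 0), (-3, 0), (-2, 0), (1, 0), (0, 0), (0, 0), (0, 0),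
  (0, 1), (0, -1), (0, 0), (0, 0), (0, 0)]
def e0 := zl [8, -4, 2, -1, 0, 0, 0, 0, 0, 0, 0, 2, -1, -1]
def e1 := zl [8, -4, 2, -1, 0, 0, 0, 0, 0, 0, 0, -1, -1, 2]

theorem g1 : IsGeneralizedCharacter W (ch x1) := mono (by decide +kernel : Ok K0 0 k0 24 x1)
theorem gs : IsGeneralizedCharacter W (ch xs) := mono (by decide +kernel : Ok K0 0 ks 24 xs)
theorem gp4 : IsGeneralizedCharacter W (ch p4) := mono (by decide +kernel : Ok K3 0 k0 6 p4)
theorem gq4 : IsGeneralizedCharacter W (ch q4) := mono (by decide +kernel : Ok K3 0 ks 6 q4)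
theorem gp3 : IsGeneralizedCharacter W (ch p3) := mono (by decide +kernel : Ok K8 0 k0 8 p3)
theorem ga0 : IsGeneralizedCharacter W (ch a0) :=
  mono (by decide +kernel : Ok K4 (1, 0, 0) (k4 0) 4 a0)
theorem ga1 : IsGeneralizedCharacter W (ch a1) :=
  mono (by decide +kernel : Ok K4 (1, 0, 0) (k4 1) 4 a1)
theorem ga2 : IsGeneralizedCharacter W (ch a2) :=
  mono (by decide +kernel : Ok K4 (1, 0, 0) (k4 2) 4 a2)
theorem ga3 : IsGeneralizedCharacter W (ch a3) :=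
  mono (by decide +kernel : Ok K4 (1, 0, 0) (k4 3) 4 a3)
theorem ge0 : IsGeneralizedCharacter W (ch e0) :=
  mono (by decide +kernel : Ok KC (1, 1, 1) (kc 0) 3 e0)
theorem ge1 : IsGeneralizedCharacter W (ch e1) :=
  mono (by decide +kernel : Ok KC (1, 1, 1) (kc 1) 3 e1)

def ad (l m : List (ℤ × ℤ)) : List (ℤ × ℤ) := (List.range 14).map fun c => tb l c + tb m c
def sb (l m : List (ℤ × ℤ)) : List (ℤ × ℤ) := (List.range 14).map fun c => tb l c - tb m c

theorem tb_map (F : ℕ → ℤ × ℤ) {c : ℕ} (h : c < 14) : tb ((List.range 14).map F) c = F c := by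
  simp [tb, List.getD_eq_getElem?_getD, h]

theorem gad {l m : List (ℤ × ℤ)} (h : IsGeneralizedCharacter W (ch l))
    (h' : IsGeneralizedCharacter W (ch m)) : IsGeneralizedCharacter W (ch (ad l m)) := by
  rw [show ch (ad l m) = ch l + ch m from funext fun w => by
    simp only [ch, ad, tb_map _ (wit w).1, evz, Pi.add_apply, Prod.fst_add, Prod.snd_add]
    push_cast; ring]
  exact h.add h'

theorem gsb {l m : List (ℤ × ℤ)} (h : IsGeneralizedCharacter W (ch l))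
    (h' : IsGeneralizedCharacter W (ch m)) : IsGeneralizedCharacter W (ch (sb l m)) := by
  rw [show ch (sb l m) = ch l - ch m from funext fun w => by
    simp only [ch, sb, tb_map _ (wit w).1, evz, Pi.sub_apply, Prod.fst_sub, Prod.snd_sub]
    push_cast; ring]
  exact h.sub h'

def t1 := sb a1 a3
def t2 := sb (ad (sb p3 x1) a1) e1
def t3 := sb (sb (sb (ad p4 q4) x1) xs) a1
def t4 := sb (sb (ad p3 q4) xs) a0
def t5 := sb (ad (ad x1 xs) a1) e0
def t6 := sb (sb (sb (ad (ad xs p3) p4) x1) x1) a2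

theorem gt1 : IsGeneralizedCharacter W (ch t1) := gsb ga1 ga3
theorem gt2 : IsGeneralizedCharacter W (ch t2) := gsb (gad (gsb gp3 g1) ga1) ge1
theorem gt3 : IsGeneralizedCharacter W (ch t3) := gsb (gsb (gsb (gad gp4 gq4) g1) gs) ga1
theorem gt4 : IsGeneralizedCharacter W (ch t4) := gsb (gsb (gad gp3 gq4) gs) ga0
theorem gt5 : IsGeneralizedCharacter W (ch t5) := gsb (gad (gad g1 gs) ga1) ge0
theorem gt6 : IsGeneralizedCharacter W (ch t6) :=
  gsb (gsb (gsb (gad (gad gs gp3) gp4) g1) g1) ga2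

theorem A_conj (n w : W) (h : A w) : A (n * w * n⁻¹) := by
  have k : ∀ m : ℕ, (w ^ m).right = 1 ∧ w ^ m ≠ 1 →
      ((n * w * n⁻¹) ^ m).right = 1 ∧ (n * w * n⁻¹) ^ m ≠ 1 := fun m ⟨a, b⟩ => by
    rw [conj_pow]
    exact ⟨by simp [a], fun e => b (by simpa using e)⟩
  exact h.imp (k 4) (k 3)

theorem supp {l : List (ℤ × ℤ)} (h : ∀ c ∈ [0, 4, 6, 8, 11], tb l c = 0) (w : W) (hw : ch l w ≠ 0) :
    A w := by
  obtain ⟨a, b⟩ := wit w
  rw [← b]
  refine A_conj _ _ (repA _ ?_)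
  by_contra hc
  refine hw ?_
  rw [ch, h _ (by simp only [List.mem_cons, List.not_mem_nil] at hc ⊢; omega)]
  simp [evz]

theorem sum_cls (F : ℕ → ℂ) : ∑ w : W, F (cls w) = ∑ c ∈ range 14, sz c * F c := by
  rw [← sum_fiberwise_of_maps_to (t := range 14) (g := cls) fun w _ => mem_range.2 (wit w).1]
  refine sum_congr rfl fun c hc => ?_
  rw [sum_congr rfl fun w hw => by rw [(mem_filter.1 hw).2], sum_const, fib c (mem_range.1 hc),
    nsmul_eq_mul]

def gr (l m : List (ℤ × ℤ)) : ℤ × ℤ := ∑ c ∈ range 14,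
  (sz c * ((tb l c).1 * (tb m c).1 + 3 * (tb l c).2 * (tb m c).2),
    sz c * ((tb l c).1 * (tb m c).2 + (tb l c).2 * (tb m c).1))

theorem evz_sum {ι : Type*} (s : Finset ι) (F : ι → ℤ × ℤ) :
    evz (∑ i ∈ s, F i) = ∑ i ∈ s, evz (F i) := by
  simp only [evz, Prod.fst_sum, Prod.snd_sum, Int.cast_sum, sum_mul, sum_add_distrib]

theorem gram {l m : List (ℤ × ℤ)} {k : ℤ} (h : gr l m = (648 * k, 0)) :
    classInner (ch l) (ch m) = k := by
  have c : conj q3 = q3 := Complex.conj_ofReal _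
  have := congrArg evz h
  rw [gr, evz_sum] at this
  rw [classInner, Nat.card_eq_fintype_card, cardW]
  simp only [ch]
  rw [sum_cls fun c => evz (tb l c) * conj (evz (tb m c)), sum_congr rfl fun i _ => ?_, this]
  · simp only [evz]; push_cast; ring
  · simp only [evz, map_add, map_mul, map_intCast, c]
    push_cast
    linear_combination (sz i * (tb l i).2 * (tb m i).2 : ℂ) * q3_sq

theorem ch_x1 : ch x1 = fun _ => 1 := funext fun w => by
  have : ∀ c < 14, tb x1 c = (1, 0) := by decide +kernel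
  simp [ch, this _ (wit w).1, evz]

theorem cj_iff {x : W} {c : ℕ} (h : ∀ n, cls (n * x * n⁻¹) = c) (hx : rep c = x) (a : W) :
    (∃ n, n * x * n⁻¹ = a) ↔ cls a = c :=
  ⟨fun ⟨n, e⟩ => e ▸ h n, fun e => ⟨wt a, by rw [← hx, ← e]; exact (wit a).2⟩⟩

theorem pair {l : List (ℤ × ℤ)} (hl : IsGeneralizedCharacter W (ch l)) {x y : W} {c d : ℕ}
    (hx : ∀ a, (∃ n, n * x * n⁻¹ = a) ↔ cls a = c) (hy : ∀ a, (∃ n, n * y * n⁻¹ = a) ↔ cls a = d)
    (hc : c < 14) {k : ℤ} (h : ∑ b ∈ univ.filter fun b => cls b = d, tb l (cls (x * b)) = (k, 0)) :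
    ∑ a ∈ univ.filter fun a => cls a = c, ∑ b ∈ univ.filter fun b => cls b = d, ch l (a * b) =
      sz c * k := by
  rw [sum_congr rfl (g := fun _ => (k : ℂ)) fun a ha => ?_, sum_const, fib c hc, nsmul_eq_mul]
  obtain ⟨n, rfl⟩ := (hx a).2 (mem_filter.1 ha).2
  have := congrArg evz h
  rw [evz_sum] at this
  rw [show (k : ℂ) = evz (k, 0) by simp [evz], ← this]
  symm
  refine sum_equiv (MulAut.conj n).toEquiv (fun b => ?_) fun b _ => ?_
  · simp only [mem_filter, mem_univ, true_and, ← hy]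
    exact ⟨fun ⟨m, e⟩ => ⟨n * m, by rw [← e]; simp [mul_assoc]⟩,
      fun ⟨m, e⟩ => ⟨n⁻¹ * m, by
        have : b = n⁻¹ * (m * y * m⁻¹) * n := by rw [e]; simp [mul_assoc]
        rw [this]; group⟩⟩
  · rw [show evz (tb l (cls (x * b))) = ch l (x * b) from rfl, ← hl.isClassFunction (x * b) n]
    congr 1
    simp [mul_assoc]

def ps (x : W) (d : ℕ) (l : List (ℤ × ℤ)) : ℤ × ℤ :=
  ∑ b ∈ univ.filter fun b => cls b = d, tb l (cls (x * b))

theorem ps_val : [t1, t2, t3, t4, t5, t6].map (fun l => (ps z 4 l, ps z 6 l, ps u 6 l)) =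
    [((0, 0), (0, 0), (0, 0)), ((72, 0), (0, 0), (0, 0)), ((0, 0), (0, 0), (36, 0)),
      ((72, 0), (72, 0), (72, 0)), ((72, 0), (0, 0), (108, 0)), ((72, 0), (-72, 0), (72, 0))] := by
  decide +kernel

end Cfsg.Agent.NA9
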