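import Cfsg.Agent.NA9.M
import Cfsg.Agent.H1.Cores
import Cfsg.Prelude.Def_TwoFusion
import Cfsg.Prelude.Def_CaseTheorems

/-! The permutation model on nine points. -/

set_option autoImplicit false

namespace Cfsg.Agent.NA9

open Equiv

namespace PE1

/-- axis of a point -/
def ax (p : Fin 9) : Z27 :=
  if p.val < 3 then (1, 0, 0) else if p.val < 6 then (0, 1, 0) else (0, 0, 1)
/-- coordinate of a point -/
def xx (p : Fin 9) : ZMod 3 := (p.val : ZMod 3) + 1
/-- point with a given axis and coordinate -/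
def enc (w : Z27) (x : ZMod 3) : Fin 9 :=
  Fin.ofNat 9 ((if w.1 ≠ 0 then 0 else if w.2.1 ≠ 0 then 3 else 6) + (x + 2).val)
/-- translations -/
def tv (v : Z27) (p : Fin 9) : Fin 9 :=
  enc (ax p) (xx p + (v.1 * (ax p).1 + v.2.1 * (ax p).2.1 + v.2.2 * (ax p).2.2))
/-- signed permutations -/
def ts (σ : S4) (p : Fin 9) : Fin 9 :=
  enc (act σ (ax p)) (((act σ (ax p)).1 + (act σ (ax p)).2.1 + (act σ (ax p)).2.2) * xx p)

theorem tv0 : ∀ p, tv 0 p = p := by decide +kernel
theorem tva : ∀ v w p, tv (v + w) p = tv v (tv w p) := by decide +kernel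
theorem ts1 : ∀ p, ts 1 p = p := by decide +kernel
theorem tsm : ∀ σ τ p, ts (σ * τ) p = ts σ (ts τ p) := by decide +kernel
theorem tvs : ∀ σ v p, tv (act σ v) (ts σ p) = ts σ (tv v p) := by decide +kernel
theorem tinj : ∀ v σ, (∀ p, tv v (ts σ p) = p) → v = 0 ∧ σ = 1 := by decide +kernel

/-- translations as permutations -/
def fn : V →* Perm (Fin 9) := MonoidHom.toHomPerm
  { toFun := fun v => tv v.toAdd, map_one' := funext tv0, map_mul' := fun _ _ => funext (tva _ _) }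
/-- signed permutations as permutations -/
def fg : S4 →* Perm (Fin 9) := MonoidHom.toHomPerm
  { toFun := ts, map_one' := funext ts1, map_mul' := fun _ _ => funext (tsm _ _) }

/-- the model acting on nine points -/
def ψ : W →* Perm (Fin 9) := SemidirectProduct.lift fn fg fun g => MonoidHom.ext fun v => by
  show fn (ph g v) = fg g * fn v * (fg g)⁻¹
  rw [eq_mul_inv_iff_mul_eq]
  exact Equiv.ext (tvs g v.toAdd)

theorem ψ_apply (w : W) (p : Fin 9) : ψ w p = tv w.left.toAdd (ts w.right p) := rfl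

theorem ψ_inj : Function.Injective ψ := (injective_iff_map_eq_one ψ).2 fun w h => by
  obtain ⟨h1, h2⟩ := tinj w.left.toAdd w.right fun p => by rw [← ψ_apply, h]; rfl
  exact SemidirectProduct.ext h1 h2

/-- a three-cycle -/
def sb : S4 := swap 1 2 * swap 2 3
/-- a double transposition -/
def sc : S4 := swap 0 3 * swap 1 2
/-- a transposition -/
def sd : S4 := swap 0 3

theorem genS : ∀ σ : S4, ∃ j k l : Fin 2, ∃ i : Fin 3,
    σ = sc ^ j.val * (sb * sc * sb⁻¹) ^ k.val * sb ^ i.val * sd ^ l.val := by decide +kernel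

theorem n3 : ∀ σ : S4, σ ≠ 1 → σ ^ 4 = 1 ∨
    ∃ τ : S4, σ * (τ * σ * τ⁻¹) ≠ 1 ∧ (σ * (τ * σ * τ⁻¹)) ^ 4 = 1 := by decide +kernel

theorem top_of {L : Subgroup W} (ha : j1 ∈ L) (hb : SemidirectProduct.inr sb ∈ L)
    (hc : SemidirectProduct.inr sc ∈ L) (hd : SemidirectProduct.inr sd ∈ L) : L = ⊤ := by
  have h1 : ∀ σ, SemidirectProduct.inr σ ∈ L := fun σ => by
    obtain ⟨j, k, l, i, rfl⟩ := genS σ
    simp only [map_mul, map_pow, map_inv]
    exact L.mul_mem (L.mul_mem (L.mul_mem (L.pow_mem hc _) (L.pow_mem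
      (L.mul_mem (L.mul_mem hb hc) (L.inv_mem hb)) _)) (L.pow_mem hb _)) (L.pow_mem hd _)
  let L' := L.comap (SemidirectProduct.inl : V →* W)
  have cj : ∀ σ v, v ∈ L' → ph σ v ∈ L' := fun σ v hv => by
    show SemidirectProduct.inl (ph σ v) ∈ L
    rw [SemidirectProduct.inl_aut]
    exact L.mul_mem (L.mul_mem (h1 _) hv) (h1 _)
  have e1 : Multiplicative.ofAdd ((1, 0, 0) : Z27) ∈ L' := ha
  have e2 : Multiplicative.ofAdd ((0, 1, 0) : Z27) ∈ L' := by
    have := cj sb _ e1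
    rwa [show ph sb (Multiplicative.ofAdd ((1, 0, 0) : Z27)) = Multiplicative.ofAdd (0, 1, 0) by
      decide +kernel] at this
  have e3 : Multiplicative.ofAdd ((0, 0, 1) : Z27) ∈ L' := by
    have := cj sb _ e2
    rwa [show ph sb (Multiplicative.ofAdd ((0, 1, 0) : Z27)) = Multiplicative.ofAdd (0, 0, 1) by
      decide +kernel] at this
  have h2 : ∀ v : Z27, Multiplicative.ofAdd v ∈ L' := fun v => by
    rw [act_gen v, ofAdd_add, ofAdd_add, ofAdd_nsmul, ofAdd_nsmul, ofAdd_nsmul]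
    exact L'.mul_mem (L'.mul_mem (L'.pow_mem e1 _) (L'.pow_mem e2 _)) (L'.pow_mem e3 _)
  refine eq_top_iff.2 fun w _ => ?_
  rw [← SemidirectProduct.inl_left_mul_inr_right w]
  exact L.mul_mem (h2 w.left.toAdd) (h1 _)

theorem ga : ψ j1 = swap (0 : Fin 9) 1 * swap 1 2 := Equiv.ext (by decide +kernel)
theorem gb : ψ (SemidirectProduct.inr sb) = swap (0 : Fin 9) 3 * swap 3 6 *
    (swap (1 : Fin 9) 4 * swap 4 7) * (swap (2 : Fin 9) 5 * swap 5 8) := Equiv.ext (by decide +kernel)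
theorem gc : ψ (SemidirectProduct.inr sc) = swap (0 : Fin 9) 1 * swap 3 4 :=
  Equiv.ext (by decide +kernel)
theorem gd : ψ (SemidirectProduct.inr sd) = swap (0 : Fin 9) 3 * swap 1 4 * swap 2 5 * swap 6 7 :=
  Equiv.ext (by decide +kernel)

theorem range_ψ : ψ.range = Subgroup.closure ({Equiv.swap (0 : Fin 9) 1 * Equiv.swap 1 2,
        Equiv.swap (0 : Fin 9) 3 * Equiv.swap 3 6 * (Equiv.swap (1 : Fin 9) 4 * Equiv.swap 4 7) * (Equiv.swap (2 : Fin 9) 5 * Equiv.swap 5 8),
        Equiv.swap (0 : Fin 9) 1 * Equiv.swap 3 4, Equiv.swap (0 : Fin 9) 3 * Equiv.swap 1 4 * Equiv.swap 2 5 * Equiv.swap 6 7} : Set (Equiv.Perm (Fin 9))) := by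
  rw [← ga, ← gb, ← gc, ← gd]
  refine le_antisymm ?_ ((Subgroup.closure_le _).2 ?_)
  · rw [MonoidHom.range_eq_map, Subgroup.map_le_iff_le_comap, top_le_iff]
    refine top_of ?_ ?_ ?_ ?_ <;> exact Subgroup.subset_closure (by simp)
  · rintro _ (rfl | rfl | rfl | rfl) <;> exact ⟨_, rfl⟩

theorem v3 : ∀ v : Z27, 3 • v = 0 := by decide +kernel

theorem core {H : Type*} [Group H] (φ : W ≃* H) (w : W) : φ w ∈ pCore 3 H ↔ w.right = 1 := by
  constructor
  · intro hw
    by_contra hne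
    let π : H →* S4 := SemidirectProduct.rightHom.comp φ.symm.toMonoidHom
    have hπ : Function.Surjective π := SemidirectProduct.rightHom_surjective.comp φ.symm.surjective
    have hN : ((pCore 3 H).map π).Normal := Subgroup.Normal.map inferInstance π hπ
    have hp := (H1.isPGroup_pCore 3 H).map π
    have hm : w.right ∈ (pCore 3 H).map π := ⟨φ w, hw, by simp [π]⟩
    have key : ∀ x ∈ (pCore 3 H).map π, x ^ 4 = 1 → x = 1 := fun x hx h4 => by
      obtain ⟨k, hk⟩ := hp ⟨x, hx⟩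
      have h3 : x ^ 3 ^ k = 1 := congrArg Subtype.val hk
      exact orderOf_eq_one_iff.1 (Nat.eq_one_of_dvd_coprimes
        (Nat.Coprime.pow_right k (by norm_num : Nat.Coprime 4 3))
        (orderOf_dvd_of_pow_eq_one h4) (orderOf_dvd_of_pow_eq_one h3))
    rcases n3 _ hne with e | ⟨τ, e1, e2⟩
    · exact hne (key _ hm e)
    · exact e1 (key _ (Subgroup.mul_mem _ hm (hN.conj_mem _ hm τ)) e2)
  · intro hw
    have hK : IsPGroup 3 (SemidirectProduct.rightHom : W →* S4).ker := by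
      rw [← SemidirectProduct.range_inl_eq_ker_rightHom]
      rintro ⟨_, v, rfl⟩
      refine ⟨1, Subtype.ext ?_⟩
      show (SemidirectProduct.inl v : W) ^ 3 ^ 1 = 1
      rw [← map_pow, show v ^ 3 ^ 1 = 1 from v3 v.toAdd, map_one]
    haveI := Subgroup.Normal.map (H := (SemidirectProduct.rightHom : W →* S4).ker) inferInstance
      φ.toMonoidHom φ.surjective
    exact H1.le_pCore (hK.map φ.toMonoidHom) ⟨w, hw, rfl⟩

end PE1

open PE1 in
theorem model {G : Type*} [Group G] [Finite G] (H : Subgroup G)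
    (hH : Nonempty (↥H ≃* ↥(Subgroup.closure ({Equiv.swap (0 : Fin 9) 1 * Equiv.swap 1 2,
        Equiv.swap (0 : Fin 9) 3 * Equiv.swap 3 6 * (Equiv.swap (1 : Fin 9) 4 * Equiv.swap 4 7) * (Equiv.swap (2 : Fin 9) 5 * Equiv.swap 5 8),
        Equiv.swap (0 : Fin 9) 1 * Equiv.swap 3 4, Equiv.swap (0 : Fin 9) 3 * Equiv.swap 1 4 * Equiv.swap 2 5 * Equiv.swap 6 7} : Set (Equiv.Perm (Fin 9))))))
    (J : Subgroup G) (hJ : J = (Cfsg.pCore 3 ↥H).map H.subtype)
    (hC : ∀ j ∈ J, j ≠ 1 → Subgroup.centralizer ({j} : Set G) ≤ H)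
    (hsc : Cfsg.IsStronglyClosed J H) : ∃ f : W →* G, Md f ∧ f.range = H := by
  obtain ⟨e⟩ := hH
  let φ : W ≃* H := ((MonoidHom.ofInjective ψ_inj).trans (MulEquiv.subgroupCongr range_ψ)).trans e.symm
  let f : W →* G := H.subtype.comp φ.toMonoidHom
  have inj : Function.Injective f := H.subtype_injective.comp φ.injective
  have hr : f.range = H := by
    rw [MonoidHom.range_comp, MonoidHom.range_eq_top.2 φ.surjective, ← MonoidHom.range_eq_map,
      Subgroup.range_subtype]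
  have hj : ∀ w, f w ∈ J ↔ w.right = 1 := fun w => by
    rw [← core φ, hJ]
    exact Subgroup.mem_map_iff_mem H.subtype_injective
  refine ⟨f, ⟨inj, fun v g h1 h2 e => ?_, fun v m g h1 e => ?_⟩, hr⟩
  · have := hC _ ((hj v).2 h1) (fun e => h2 (inj (e.trans f.map_one.symm)))
      (Subgroup.mem_centralizer_singleton_iff.2 e)
    rw [← hr] at this
    exact this
  · refine (hj m).1 (e ▸ hsc.2 _ ((hj v).2 h1) g ?_)
    rw [e, ← hr]
    exact ⟨m, rfl⟩

end Cfsg.Agent.NA9
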