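import Cfsg.Agent.NA9.M
import Cfsg.Agent.H11.Syl

/-! Fusion of special elements and involutions in the model `3³ : S₄` -/

set_option autoImplicit false
set_option maxRecDepth 100000
set_option linter.unusedVariables false
set_option synthInstance.maxSize 100000

namespace Cfsg.Agent.NA9

open Equiv Subgroup SemidirectProduct

namespace P2

/-- componentwise equality test -/
scoped instance (priority := high) dW : DecidableEq W := fun a b =>
  decidable_of_iff (a.left = b.left ∧ a.right = b.right) SemidirectProduct.ext_iff.symm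

theorem reps0 : ∀ v : V, v ≠ 1 → ∃ σ : S4, ph σ j1.left = v ∨ ph σ j2.left = v ∨ ph σ j3.left = v := by
  decide +kernel

theorem reps (v : W) (h : v.right = 1) (h1 : v ≠ 1) :
    ∃ n : W, n * j1 * n⁻¹ = v ∨ n * j2 * n⁻¹ = v ∨ n * j3 * n⁻¹ = v := by
  have e : inl v.left = v := SemidirectProduct.ext rfl h.symm
  obtain ⟨σ, hσ⟩ := reps0 v.left fun e' => h1 (by rw [← e, e', map_one])
  refine ⟨inr σ, ?_⟩
  rw [← map_inv, ← e]
  rcases hσ with e | e | e <;> rw [← e, inl_aut]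
  exacts [Or.inl rfl, Or.inr (Or.inl rfl), Or.inr (Or.inr rfl)]

theorem cc (v : W) : Nat.card (centralizer ({v} : Set W)) = Fintype.card {n : W // n * v = v * n} := by
  rw [← Nat.card_eq_fintype_card]
  exact Nat.card_congr (Equiv.subtypeEquivRight fun y => mem_centralizer_singleton_iff)

theorem c1 : Nat.card (centralizer ({j1} : Set W)) = 108 := by rw [cc]; decide +kernel
theorem c2 : Nat.card (centralizer ({j2} : Set W)) = 54 := by rw [cc]; decide +kernel
theorem c3 : Nat.card (centralizer ({j3} : Set W)) = 81 := by rw [cc]; decide +kernel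

theorem conj_of_card {v m : W} (h : v.right = 1) (h1 : v ≠ 1) (h' : m.right = 1) (h1' : m ≠ 1)
    (e : Nat.card (centralizer ({v} : Set W)) = Nat.card (centralizer ({m} : Set W))) :
    ∃ n : W, n * v * n⁻¹ = m := by
  obtain ⟨a, ha⟩ := reps v h h1
  obtain ⟨b, hb⟩ := reps m h' h1'
  rcases ha with rfl | rfl | rfl <;> rcases hb with rfl | rfl | rfl <;>
    first
    | (refine ⟨b * a⁻¹, ?_⟩; group; done)
    | (rw [H11.card_cent_conj, H11.card_cent_conj] at e; simp only [c1, c2, c3] at e; omega)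

theorem inv0 : ∀ a : W, a * a = 1 → a = (inl a.left)⁻¹ * inr a.right * (inl a.left)⁻¹⁻¹ := by decide +kernel

theorem inv1 : ∀ σ : S4, σ * σ = 1 → σ ≠ 1 → ∃ τ : S4, τ * z.right * τ⁻¹ = σ ∨ τ * u.right * τ⁻¹ = σ := by
  decide +kernel

theorem inv (a : W) (h : a * a = 1) (h1 : a ≠ 1) : ∃ n : W, n * z * n⁻¹ = a ∨ n * u * n⁻¹ = a := by
  have e := inv0 a h
  obtain ⟨τ, hτ⟩ := inv1 a.right (congrArg SemidirectProduct.right h) fun e' => h1 (by rw [e, e']; simp)
  refine ⟨(inl a.left)⁻¹ * inr τ, ?_⟩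
  have ez : z = inr z.right := rfl
  have eu : u = inr u.right := rfl
  rcases hτ with e' | e'
  · left; rw [ez]; conv_rhs => rw [e, ← e']
    simp only [map_mul, map_inv]; group
  · right; rw [eu]; conv_rhs => rw [e, ← e']
    simp only [map_mul, map_inv]; group

theorem cz : ∀ n : W, n * z = z * n → n ^ 4 = 1 ∨ n ^ 4 = j1 ∨ n ^ 4 = j1 ^ 2 := by decide +kernel

theorem misc : j1 ≠ 1 ∧ j2 ≠ 1 ∧ j1 ^ 3 = 1 ∧ j2 ^ 3 = 1 ∧ j1 * z = z * j1 ∧ j2 * u = u * j2 ∧ z * z = 1 ∧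
    u * u = 1 ∧ z ≠ 1 ∧ u ≠ 1 ∧ j1 ^ 2 ≠ 1 ∧ (j1 ^ 2).right = 1 := by decide +kernel

theorem c1' : Nat.card (centralizer ({j1 ^ 2} : Set W)) = 108 := by rw [cc]; decide +kernel

theorem nA : ∀ m : W, m * m = 1 → ¬ A m := by unfold A; decide +kernel

end P2

open P2

variable {G : Type*} [Group G] [Finite G] {f : W →* G}

theorem Md.card_cent (h : Md f) {v : W} (hv : v.right = 1) (h1 : v ≠ 1) :
    Nat.card (centralizer ({f v} : Set G)) = Nat.card (centralizer ({v} : Set W)) := by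
  rw [← card_map_of_injective h.inj]
  congr 2
  ext g
  simp only [mem_map, mem_centralizer_singleton_iff]
  constructor
  · intro e
    obtain ⟨n, rfl⟩ := h.cent v g hv h1 e
    exact ⟨n, h.inj (by rw [map_mul, map_mul, e]), rfl⟩
  · rintro ⟨n, e, rfl⟩
    rw [← map_mul, e, map_mul]

theorem Md.tiJ (h : Md f) {v m : W} {g : G} (hv : v.right = 1) (h1 : v ≠ 1) (e : g * f v * g⁻¹ = f m) :
    ∃ n, f n = g := by
  have hm := h.sc v m g hv e
  have m1 : m ≠ 1 := fun e' => h1 (h.inj (by simpa [e'] using e))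
  obtain ⟨n, rfl⟩ := conj_of_card hv h1 hm m1 (by rw [← h.card_cent hv h1, ← h.card_cent hm m1, ← e, H11.card_cent_conj])
  obtain ⟨k, hk⟩ := h.cent v ((f n)⁻¹ * g) hv h1 (by
    simp only [map_mul, map_inv] at e
    rw [show (f n)⁻¹ * g * f v = (f n)⁻¹ * (g * f v * g⁻¹) * g by group, e]; group)
  exact ⟨n * k, by rw [map_mul, hk, mul_inv_cancel_left]⟩

theorem Md.ti (h : Md f) (a m : W) (g : G) (ha : A a) (e : g * f a * g⁻¹ = f m) : ∃ n, f n = g := by
  rcases ha with ⟨h1, h2⟩ | ⟨h1, h2⟩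
  · exact h.tiJ (m := m ^ 4) h1 h2 (by rw [map_pow, map_pow, ← e, conj_pow])
  · exact h.tiJ (m := m ^ 3) h1 h2 (by rw [map_pow, map_pow, ← e, conj_pow])

theorem Md.nzu (h : Md f) : ¬ IsConj (f u) (f z) := fun hc => by
  haveI := Fact.mk Nat.prime_three
  obtain ⟨a1, a2, a3, a4, a5, a6, -, -, -, -, a11, a12⟩ := misc
  obtain ⟨g, hg⟩ := isConj_iff.1 hc
  have o1 : orderOf (f j1) = 3 :=
    orderOf_eq_prime (by rw [← map_pow, a3, map_one]) fun e => a1 (h.inj (by rw [e, map_one]))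
  have o2 : orderOf (g * f j2 * g⁻¹) = 3 ^ 1 := by
    rw [pow_one]
    exact orderOf_eq_prime (by rw [conj_pow, ← map_pow, a4]; simp) fun e => a2 (h.inj (by simpa using e))
  have hz : ∀ y ∈ zpowers (f j1), ∃ k : ℕ, k < 3 ∧ f (j1 ^ k) = y := fun y hy => by
    classical
    rw [mem_zpowers_iff_mem_range_orderOf, o1] at hy
    simpa only [Finset.mem_image, Finset.mem_range, map_pow] using hy
  have pg : IsPGroup 3 (zpowers (f j1)) := IsPGroup.of_card (n := 1) (by rw [Nat.card_zpowers, o1, pow_one])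
  have le : zpowers (f j1) ≤ centralizer {f z} :=
    zpowers_le.2 (mem_centralizer_singleton_iff.2 (by rw [← map_mul, a5, map_mul]))
  have hS : H11.IsSylIn 3 (zpowers (f j1)) (centralizer {f z}) := by
    by_contra hS
    obtain ⟨Q, q1, q2, q3, q4⟩ := H11.exists_lt_normalizer_of_not_isSylIn pg le hS
    refine q2.not_ge fun q hq => ?_
    obtain ⟨k, -, hk⟩ := hz _ (H11.conj_mem_of_mem_normalizer (q4 hq) (mem_zpowers _))
    obtain ⟨n, rfl⟩ := h.tiJ rfl a1 hk.symm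
    obtain ⟨k, hk⟩ := IsPGroup.iff_orderOf.1 q1 ⟨_, hq⟩
    rw [Subgroup.orderOf_mk] at hk
    have e : f n ∈ zpowers (f n ^ 4) := mem_zpowers_pow_iff.2 (by
      rw [hk]; exact Nat.Coprime.pow_right k (by norm_num))
    refine zpowers_le.2 ?_ e
    rw [← map_pow]
    rcases cz n (h.inj (by rw [map_mul, map_mul]; exact mem_centralizer_singleton_iff.1 (q3 hq))) with
      e | e | e <;> rw [e]
    · rw [map_one]; exact one_mem _
    · exact mem_zpowers _
    · rw [map_pow]; exact pow_mem (mem_zpowers _) _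
  obtain ⟨c, -, hc⟩ := hS.exists_conj_mem o2 (mem_centralizer_singleton_iff.2 (by
    rw [← hg, conj_mul, conj_mul, ← map_mul, a6, map_mul]))
  obtain ⟨k, k3, hk⟩ := hz _ hc
  have e := H11.card_cent_conj (c * g) (f j2)
  rw [show c * g * f j2 * (c * g)⁻¹ = c * (g * f j2 * g⁻¹) * c⁻¹ by group, ← hk, h.card_cent rfl a2, c2] at e
  interval_cases k
  · rw [pow_zero, map_one] at hk
    exact a2 (h.inj (by simpa using hk.symm))
  · rw [pow_one, h.card_cent rfl a1, c1] at e; omega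
  · rw [h.card_cent a12 a11, c1'] at e; omega

theorem Md.sq (h : Md f) {w a : W} (hw : w * w = 1) (e : IsConj (f w) (f a)) : a * a = 1 := by
  obtain ⟨g, hg⟩ := isConj_iff.1 e
  exact h.inj (by rw [map_mul, ← hg, conj_mul, ← map_mul, hw]; simp)

theorem cjf {w a n : W} (e : n * w * n⁻¹ = a) : IsConj (f w) (f a) :=
  isConj_iff.2 ⟨f n, by rw [← e, map_mul, map_mul, map_inv]⟩

theorem Md.ne (h : Md f) {w a : W} (hw : w ≠ 1) (e : IsConj (f w) (f a)) : a ≠ 1 := fun e' =>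
  hw (h.inj (by rw [e', map_one] at e; rw [isConj_one_left.1 e, map_one]))

theorem Md.conj_z (h : Md f) (a : W) : IsConj (f z) (f a) ↔ ∃ n, n * z * n⁻¹ = a := by
  obtain ⟨-, -, -, -, -, -, a7, a8, a9, a10, -⟩ := misc
  refine ⟨fun e => ?_, fun ⟨n, e⟩ => cjf e⟩
  obtain ⟨n, e' | e'⟩ := P2.inv a (h.sq a7 e) (h.ne a9 e)
  · exact ⟨n, e'⟩
  · exact absurd ((cjf e').trans e.symm) h.nzu

theorem Md.conj_u (h : Md f) (a : W) : IsConj (f u) (f a) ↔ ∃ n, n * u * n⁻¹ = a := by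
  obtain ⟨-, -, -, -, -, -, a7, a8, a9, a10, -⟩ := misc
  refine ⟨fun e => ?_, fun ⟨n, e⟩ => cjf e⟩
  obtain ⟨n, e' | e'⟩ := P2.inv a (h.sq a8 e) (h.ne a10 e)
  · exact absurd (e.trans (cjf e').symm) h.nzu
  · exact ⟨n, e'⟩

theorem Md.notA_z (h : Md f) (x : G) (m : W) (e : x * f z * x⁻¹ = f m) : ¬ A m :=
  nA m (h.sq misc.2.2.2.2.2.2.1 (isConj_iff.2 ⟨x, e⟩))

theorem Md.notA_u (h : Md f) (x : G) (m : W) (e : x * f u * x⁻¹ = f m) : ¬ A m :=
  nA m (h.sq misc.2.2.2.2.2.2.2.1 (isConj_iff.2 ⟨x, e⟩))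

theorem Md.notA_one (h : Md f) (x : G) (m : W) (e : x * 1 * x⁻¹ = f m) : ¬ A m :=
  nA m (h.sq (one_mul 1) (isConj_iff.2 ⟨x, by rwa [map_one]⟩))

end Cfsg.Agent.NA9
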