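import Cfsg.Agent.H6.InvCount
import Cfsg.Agent.H5.Ind2
import Cfsg.Agent.H19.W2

/-! Induction of generalized characters supported on a trivial-intersection set. -/

set_option autoImplicit false
set_option linter.unusedSectionVars false
set_option linter.style.haveILetI false

namespace Cfsg.Agent.NA9
open Cfsg Cfsg.Agent.H4 Cfsg.Agent.H5 Subgroup
open scoped ComplexConjugate

variable {G W : Type*} [Group G] [Fintype G] [Group W] [Fintype W] [DecidableEq W] {f : W →* G}
  {A : W → Prop} {θ θ' : W → ℂ} {b b' : IrrCharacter G → ℤ}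

/-- transport of a function to the range -/
noncomputable def tr (inj : Function.Injective f) (θ : W → ℂ) : f.range → ℂ :=
  fun h => θ ((MonoidHom.ofInjective inj).symm h)

theorem tr_apply (inj : Function.Injective f) (θ : W → ℂ) (w : W) (h : f w ∈ f.range) :
    tr inj θ ⟨f w, h⟩ = θ w :=
  congrArg θ ((MonoidHom.ofInjective inj).symm_apply_apply w)

theorem tr_inner (inj : Function.Injective f) [Fintype f.range] (θ : W → ℂ) (η : f.range → ℂ) :
    classInner (tr inj θ) η = classInner θ fun w => η ⟨f w, w, rfl⟩ := by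
  rw [← inner_comp_equiv (MonoidHom.ofInjective inj).toEquiv]
  congr 1
  funext w
  exact tr_apply inj θ w _

theorem ind_inner (inj : Function.Injective f) (θ : W → ℂ) {χ : G → ℂ} (hχ : IsClassFunction G χ) :
    classInner (indFun f.range (tr inj θ)) χ = classInner θ fun w => χ (f w) := by
  classical
  rw [inner_indFun_left _ _ hχ, tr_inner]

theorem I0 (hθ : IsGeneralizedCharacter W θ) : ∃ b : IrrCharacter G → ℤ,
    ∀ χ : IrrCharacter G, (b χ : ℂ) = classInner θ (fun w => (χ : G → ℂ) (f w)) := by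
  have : ∀ χ : IrrCharacter G, ∃ n : ℤ, (n : ℂ) = classInner θ (fun w => (χ : G → ℂ) (f w)) :=
    fun χ => by
      obtain ⟨n, hn⟩ := hθ.classInner_int ((χ.2.isCharacter.comp f).isGen)
      exact ⟨n, hn.symm⟩
  choose b hb using this
  exact ⟨b, hb⟩

theorem ind_at (inj : Function.Injective f)
    (ti : ∀ (a m : W) (g : G), A a → g * f a * g⁻¹ = f m → ∃ n, f n = g)
    (hθ : IsGeneralizedCharacter W θ) {a : W} (ha : A a) :
    indFun f.range (tr inj θ) (f a) = θ a := by
  have := indFun_eq_of_TI f.range (θ := tr inj θ)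
    (hθ.isClassFunction.comp (MonoidHom.ofInjective inj).symm.toMonoidHom) ⟨f a, a, rfl⟩
    fun g hg ⟨m, hm⟩ => absurd (ti a m g ha hm.symm) hg
  exact this.trans (tr_apply inj θ a _)

theorem ind_eq (inj : Function.Injective f)
    (hb : ∀ χ : IrrCharacter G, (b χ : ℂ) = classInner θ (fun w => (χ : G → ℂ) (f w)))
    (χ : IrrCharacter G) : classInner (indFun f.range (tr inj θ)) χ = b χ := by
  rw [hb, ind_inner inj θ χ.2.isCharacter.isClassFunction]

theorem I1 (inj : Function.Injective f)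
    (ti : ∀ (a m : W) (g : G), A a → g * f a * g⁻¹ = f m → ∃ n, f n = g)
    (_hθ : IsGeneralizedCharacter W θ) (hA : ∀ w, θ w ≠ 0 → A w)
    (hθ' : IsGeneralizedCharacter W θ') (_hA' : ∀ w, θ' w ≠ 0 → A w)
    (hb : ∀ χ : IrrCharacter G, (b χ : ℂ) = classInner θ (fun w => (χ : G → ℂ) (f w)))
    (hb' : ∀ χ : IrrCharacter G, (b' χ : ℂ) = classInner θ' (fun w => (χ : G → ℂ) (f w))) :
    ((H19.ip b b' : ℤ) : ℂ) = classInner θ θ' := by
  have h1 : classInner (indFun f.range (tr inj θ)) (indFun f.range (tr inj θ')) =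
      classInner θ θ' := by
    rw [ind_inner inj θ (indFun_isClassFunction _ _)]
    unfold classInner
    congr 1
    refine Finset.sum_congr rfl fun w _ => ?_
    by_cases e : θ w = 0
    · simp [e]
    · simp only [ind_at inj ti hθ' (hA w e)]
  rw [← h1, (indFun_isClassFunction _ _).classInner_eq_sum, H19.ip, Int.cast_sum]
  refine Finset.sum_congr rfl fun χ _ => ?_
  rw [ind_eq inj hb, ind_eq inj hb']
  simp

theorem I2 (inj : Function.Injective f)
    (_ti : ∀ (a m : W) (g : G), A a → g * f a * g⁻¹ = f m → ∃ n, f n = g)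
    (_hθ : IsGeneralizedCharacter W θ) (hA : ∀ w, θ w ≠ 0 → A w)
    (hb : ∀ χ : IrrCharacter G, (b χ : ℂ) = classInner θ (fun w => (χ : G → ℂ) (f w)))
    {g : G} (hg : ∀ x m, x * g * x⁻¹ = f m → ¬ A m) :
    ∑ χ : IrrCharacter G, (b χ : ℂ) * (χ : G → ℂ) g = 0 := by
  have h1 : indFun f.range (tr inj θ) g = 0 := indFun_eq_zero_of_forall _ _ fun x ⟨m, hm⟩ => by
    by_contra e
    refine hg x m hm.symm (hA m fun e' => e ?_)
    rw [← e', ← tr_apply inj θ m ⟨m, rfl⟩]
    exact congrArg _ (Subtype.ext hm.symm)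
  rw [← h1, (indFun_isClassFunction _ _).apply_eq_sum]
  exact Finset.sum_congr rfl fun χ _ => by rw [ind_eq inj hb]

theorem I3 (inj : Function.Injective f)
    (ti : ∀ (a m : W) (g : G), A a → g * f a * g⁻¹ = f m → ∃ n, f n = g)
    (_hθ : IsGeneralizedCharacter W θ) (hA : ∀ w, θ w ≠ 0 → A w)
    (hb : ∀ χ : IrrCharacter G, (b χ : ℂ) = classInner θ (fun w => (χ : G → ℂ) (f w)))
    {u v : G} (hu : u * u = 1) (hv : v * v = 1) (p q : W → Prop) [DecidablePred p]
    [DecidablePred q] (hp : ∀ a, IsConj u (f a) ↔ p a) (hq : ∀ a, IsConj v (f a) ↔ q a) :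
    (∑ χ : IrrCharacter G, (b χ : ℂ) * ((χ : G → ℂ) u * (χ : G → ℂ) v / (χ : G → ℂ) 1)) *
        (Nat.card G * Nat.card W) =
      Nat.card (Subgroup.centralizer ({u} : Set G)) * Nat.card (Subgroup.centralizer ({v} : Set G)) *
        ∑ a ∈ Finset.univ.filter p, ∑ c ∈ Finset.univ.filter q, θ (a * c) := by
  classical
  have h1 := H6.sum_class_class_eq (indFun_isClassFunction f.range (tr inj θ)) u v
  simp only [ind_eq inj hb] at h1
  let E := extendByZero f.range (tr inj θ)
  have hE : ∀ w, E (f w) = θ w := fun w => by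
    exact (extendByZero_mem f.range _ (x := f w) ⟨w, rfl⟩).trans (tr_apply inj θ w _)
  have sq : ∀ {y a : G}, y * y = 1 → IsConj y a → a * a = 1 := fun {y a} hy h => by
    obtain ⟨c, rfl⟩ := isConj_iff.1 h
    rw [show c * y * c⁻¹ * (c * y * c⁻¹) = c * (y * y) * c⁻¹ by group, hy]; simp
  have h2 : ∀ x : G, ∑ a ∈ Finset.univ.filter (IsConj u), ∑ c ∈ Finset.univ.filter (IsConj v),
      E (x * (a * c) * x⁻¹) =
      ∑ a ∈ Finset.univ.filter (IsConj u), ∑ c ∈ Finset.univ.filter (IsConj v), E (a * c) :=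
    fun x => by
      have cj : ∀ y a : G, IsConj y a ↔ IsConj y (x * a * x⁻¹) := fun y a =>
        ⟨fun h => h.trans (isConj_iff.2 ⟨x, rfl⟩), fun h => h.trans (isConj_iff.2 ⟨x, rfl⟩).symm⟩
      refine Finset.sum_equiv (MulAut.conj x).toEquiv (fun a => by simpa using cj u a) fun a _ => ?_
      refine Finset.sum_equiv (MulAut.conj x).toEquiv (fun c => by simpa using cj v c) fun c _ => ?_
      congr 1
      simp [mul_assoc]
  have key : ∀ a c : G, IsConj u a → IsConj v c → E (a * c) ≠ 0 → a ∈ f.range ∧ c ∈ f.range :=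
    fun a c ha hc e => by
      obtain ⟨m, hm⟩ : a * c ∈ f.range := by
        by_contra hn
        exact e (extendByZero_not_mem _ _ hn)
      have h3 : a ∈ f.range := ti m m⁻¹ a (hA m (by rwa [← hE, hm])) (by
        rw [map_inv, hm, ← mul_assoc, sq hu ha, one_mul, mul_inv_rev,
          inv_eq_of_mul_eq_one_right (sq hv hc)])
      exact ⟨h3, (mul_mem_cancel_left h3).1 ⟨m, hm⟩⟩
  have h3 : ∑ a ∈ Finset.univ.filter p, ∑ c ∈ Finset.univ.filter q, θ (a * c) =
      ∑ a ∈ Finset.univ.filter (IsConj u), ∑ c ∈ Finset.univ.filter (IsConj v), E (a * c) := by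
    rw [← Finset.sum_product', ← Finset.sum_product']
    refine Finset.sum_of_injOn (Prod.map f f) (inj.prodMap inj).injOn (fun x hx => ?_)
      (fun x hx hn => ?_) fun x _ => ?_
    · simpa only [Finset.coe_product, Finset.coe_filter, Finset.mem_univ, true_and, Set.mem_prod,
        Set.mem_ofPred_eq, Prod.map_fst, Prod.map_snd, hp, hq] using hx
    · by_contra e
      simp only [Finset.mem_product, Finset.mem_filter, Finset.mem_univ, true_and] at hx
      obtain ⟨⟨a, ha⟩, c, hc⟩ := key _ _ hx.1 hx.2 e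
      refine hn ⟨(a, c), ?_, Prod.ext ha hc⟩
      simp only [Finset.coe_product, Finset.coe_filter, Finset.mem_univ, true_and, Set.mem_prod,
        Set.mem_ofPred_eq, ← hp, ← hq, ha, hc]
      exact hx
    · simp [← hE]
  have h4 : ∑ a ∈ Finset.univ.filter (IsConj u), ∑ c ∈ Finset.univ.filter (IsConj v),
      indFun f.range (tr inj θ) (a * c) = (Nat.card W : ℂ)⁻¹ * (Nat.card G *
        ∑ a ∈ Finset.univ.filter p, ∑ c ∈ Finset.univ.filter q, θ (a * c)) := by
    simp only [indFun_apply', ← Finset.mul_sum]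
    rw [Nat.card_congr (MonoidHom.ofInjective inj).toEquiv, h3,
      Finset.sum_congr rfl fun a _ => Finset.sum_comm, Finset.sum_comm,
      Finset.sum_congr rfl fun x _ => h2 x]
    simp
  rw [h4] at h1
  generalize (∑ χ : IrrCharacter G, (b χ : ℂ) * ((χ : G → ℂ) u * (χ : G → ℂ) v / (χ : G → ℂ) 1)) = s at h1 ⊢
  have c1 := H5.card_mul_index_C (centralizer ({u} : Set G))
  have c2 := H5.card_mul_index_C (centralizer ({v} : Set G))
  have c3 := card_ne_zero_C W
  have c4 := card_ne_zero_C G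
  field_simp at h1
  refine mul_left_cancel₀ c4 ?_
  linear_combination (-(Nat.card (centralizer ({u} : Set G)) : ℂ) *
    Nat.card (centralizer ({v} : Set G))) * h1 - (Nat.card W * s) * ((Nat.card G : ℂ) * c1 + (Nat.card (centralizer ({u} : Set G)) : ℂ) * (centralizer ({u} : Set G)).index * c2)

end Cfsg.Agent.NA9
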