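import Cfsg.Agent.H19.N9a

/-! The lattice argument for groups with a subgroup `3³ : S₄` of special classes. -/

set_option autoImplicit false

namespace Cfsg.Agent.NA9

open Finset H19

/-- the relations satisfied by the coefficient vector of an induced generalized character -/
def R {ι : Type*} [Fintype ι] (d : ι → ℤ) (T S : ι → ℚ) (κ : ℚ) (b : ι → ℤ) (A B C : ℚ) : Prop :=
  H19.ip b d = 0 ∧ ∑ m, b m * T m = 0 ∧ ∑ m, b m * S m = 0 ∧ ∑ m, b m * (T m * T m / d m) = A * κ ∧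
    ∑ m, b m * (T m * S m / d m) = B * κ ∧ ∑ m, b m * (S m * S m / d m) = C * κ

namespace PL

theorem arith {κ α KE KC KF KG e c f g s t : ℚ} (e0 : e ≠ 0) (c0 : c ≠ 0) (f0 : f ≠ 0) (g0 : g ≠ 0)
    (h1 : 3 / 8 * e ^ 2 = α + KE) (h2 : 3 / 8 * c ^ 2 = α + KC) (h3 : 3 / 8 * (e - c) ^ 2 = KE + KC)
    (h4 : 3 / 2 * f ^ 2 = -α + KF) (h5 : 3 / 2 * g ^ 2 = -α + KG) (h6 : 3 / 2 * (f - g) ^ 2 = KF + KG)
    (h7 : 3 / 4 * (e + g) ^ 2 + 3 / 4 * g ^ 2 = KE + KG)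
    (h8 : 3 / 4 * (s - e - t) ^ 2 + 3 / 4 * t ^ 2 = κ + KE)
    (h9 : 3 / 4 * (s - (t - g)) ^ 2 + 3 / 4 * (t - g) ^ 2 = κ + KG)
    (h10 : 3 / 8 * s ^ 2 + 1 / 2 * t ^ 2 = κ + α)
    (h11 : 3 / 4 * (e - g) ^ 2 + 3 / 4 * g ^ 2 = KE + KG ∨ 3 / 4 * (c - f) ^ 2 + 3 / 4 * f ^ 2 = KC + KF ∨
      3 / 4 * (c - g) ^ 2 + 3 / 4 * g ^ 2 = KC + KG ∨ 3 / 4 * (e - f) ^ 2 + 3 / 4 * f ^ 2 = KE + KF) :
    2 * KE = 3 * κ ∨ 3 * KG = κ := by
  obtain rfl : e = -4 * g := mul_left_cancel₀ e0 (by linear_combination 8 / 3 * (h7 - h1 - h5))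
  obtain ⟨m, rfl⟩ : ∃ m, s = 2 * m := ⟨s / 2, by ring⟩
  rcases h11 with h | h | h | h
  · exact absurd (mul_self_eq_zero.1 (by linear_combination (h - h7) / 12)) g0
  · obtain rfl : c = 4 * f := mul_left_cancel₀ c0 (by linear_combination 8 / 3 * (h - h2 - h4))
    exact absurd (by linear_combination (h3 - h1 - h2 + h6 - h4 - h5) / 9 : f * g = 0) (mul_ne_zero f0 g0)
  · obtain rfl : c = 4 * g := mul_left_cancel₀ c0 (by linear_combination 8 / 3 * (h - h2 - h5))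
    obtain rfl : α = -6 * g ^ 2 := by linear_combination (h3 - h1 - h2) / (-2) * (-1)
    obtain rfl : t = 3 * m - 2 * g := mul_left_cancel₀ g0 (by linear_combination (h8 - h9 - h1 + h5) / (-3))
    have h21 : IsSquare ((21 : ℕ) : ℚ) := ⟨(3 * m - 12 * g) / (2 * g), by
      field_simp
      push_cast
      linear_combination (-6) * (h9 - h10 - h5)⟩
    obtain ⟨k, hk⟩ := Rat.isSquare_natCast_iff.1 h21
    have : k ≤ 5 := by nlinarith
    interval_cases k <;> omega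
  · obtain rfl : f = -g := mul_left_cancel₀ g0 (by linear_combination (h - h1 - h4) / 6)
    obtain rfl : α = 3 / 2 * g ^ 2 := by linear_combination (h6 - h4 - h5) / (-2)
    obtain rfl : t = 3 * m + 3 * g := mul_left_cancel₀ g0 (by linear_combination (h8 - h9 - h1 + h5) / (-3))
    rcases mul_eq_zero.1 (by linear_combination 2 / 3 * (h9 - h10 - h5) : m * (m + 2 * g) = 0) with e | e
    · subst e; left; linear_combination 3 * h10 - 2 * h1
    · obtain rfl : m = -2 * g := by linear_combination e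
      right; linear_combination h10 - 3 * h5

theorem inv3 {p q r u v w M : ℚ} (hp : p ≠ 0) (hq : q ≠ 0) (hr : r ≠ 0) (e0 : p + q + r = 0)
    (e1 : u + v + w = 0) (hM : u * u / p + v * v / q + w * w / r = M) :
    (u / p - v / q) ^ 2 = M * (1 / p + 1 / q) := by
  obtain rfl : r = -(p + q) := by linear_combination e0
  obtain rfl : w = -(u + v) := by linear_combination e1
  have : p + q ≠ 0 := neg_ne_zero.1 hr
  rw [← hM]; field_simp; ring

variable {ι : Type*} [Fintype ι] {d b : ι → ℤ} {T S : ι → ℚ} {κ A B C : ℚ} {i j k : ι}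

theorem kk (hd : ∀ i, 0 < d i) (h : b i = 1 ∨ b i = -1) : κ * (1 / (b i * d i : ℚ)) = b i * (κ / d i) := by
  have : (d i : ℚ) ≠ 0 := Int.cast_ne_zero.2 (hd i).ne'
  rcases h with h | h <;> rw [h] <;> push_cast <;> field_simp

theorem pair4 (hκ : κ ≠ 0) (hd : ∀ i, 0 < d i) (g : ip b b = 4) (h : R d T S κ b A B C) (ij : i ≠ j)
    (hi : b i ≠ 0) (hj : b j ≠ 0) :
    C * (T i / d i - T j / d j) ^ 2 - 2 * B * (T i / d i - T j / d j) * (S i / d i - S j / d j) +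
      A * (S i / d i - S j / d j) ^ 2 = (A * C - B ^ 2) * (b i * (κ / d i) + b j * (κ / d j)) := by
  classical
  have p := N9.pm4 hd g h.1
  have c4 : (univ.filter (b · ≠ 0)).card = 4 := by
    have : ((univ.filter (b · ≠ 0)).card : ℤ) = 4 := by
      rw [← g, card_filter, Nat.cast_sum]
      exact sum_congr rfl fun i _ => by
        obtain e | e | e : b i = 0 ∨ b i = 1 ∨ b i = -1 := by have := p i; omega
        all_goals simp [e]
    exact_mod_cast this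
  obtain ⟨k, k1, k2⟩ := exists_mem_notMem_of_card_lt_card (s := {i, j}) (card_le_two.trans_lt ((by decide : 2 < 4).trans_eq c4.symm))
  obtain ⟨l, l1, l2⟩ := exists_mem_notMem_of_card_lt_card (s := {i, j, k})
    (card_le_three.trans_lt ((by decide : 3 < 4).trans_eq c4.symm))
  simp only [mem_insert, mem_singleton, not_or, mem_filter, mem_univ, true_and] at k1 k2 l1 l2
  have := (N9.blk hd g h.1 (i := i) (j := k) (k := j) (l := l) (Ne.symm k2.1) ij (Ne.symm l2.1) k2.2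
    (Ne.symm l2.2.2) (Ne.symm l2.2.1) hi k1 hj l1 h.2.1 h.2.2.1 h.2.2.2.1 h.2.2.2.2.1 h.2.2.2.2.2
    (τ := fun m => T m / d m - T j / d j) (σ := fun m => S m / d m - S j / d j) (fun _ => rfl) fun _ => rfl).1
  rw [← kk hd (by have := p i; omega), ← kk hd (by have := p j; omega)]
  exact mul_left_cancel₀ hκ (by linear_combination this)

theorem pair3 (hκ : κ ≠ 0) (hd : ∀ i, 0 < d i) (s : S3 b i j k) (h0 : ip b d = 0) (h1 : ∑ m, b m * T m = 0)
    (h2 : ∑ m, b m * (T m * T m / d m) = A * κ) :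
    (T i / d i - T j / d j) ^ 2 = A * (b i * (κ / d i) + b j * (κ / d j)) ∧
      b i * (κ / d i) + b j * (κ / d j) ≠ 0 := by
  have p := pm s.n le_rfl
  rw [s.ip] at h0
  rw [s.sum _ fun l e => by simp [e]] at h1 h2
  have h3 : (b i * d i + b j * d j + b k * d k : ℚ) = 0 := by exact_mod_cast h0
  have n : ∀ m, b m ≠ 0 → (b m : ℚ) ≠ 0 := fun m => Int.cast_ne_zero.2
  have n' : ∀ m, (d m : ℚ) ≠ 0 := fun m => Int.cast_ne_zero.2 (hd m).ne'
  have e : ∀ m, b m ≠ 0 → ∀ x y : ℚ, b m * x * (b m * y) / (b m * d m) = b m * (x * y / d m) :=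
    fun m hm x y => by have := n m hm; have := n' m; field_simp
  have a1 := mul_ne_zero (n i s.hi) (n' i)
  have a2 := mul_ne_zero (n j s.hj) (n' j)
  have a3 := mul_ne_zero (n k s.hk) (n' k)
  have := inv3 a1 a2 a3 h3 h1 (by rw [e i s.hi, e j s.hj, e k s.hk, h2])
  rw [mul_div_mul_left _ _ (n i s.hi), mul_div_mul_left _ _ (n j s.hj)] at this
  rw [← kk hd ((p i).resolve_left s.hi), ← kk hd ((p j).resolve_left s.hj)]
  refine ⟨by linear_combination this, ?_⟩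
  rw [← mul_add, div_add_div _ _ a1 a2]
  exact mul_ne_zero hκ (div_ne_zero (fun e => a3 (by linear_combination h3 - e)) (mul_ne_zero a1 a2))

theorem pair2 (hd : ∀ i, 0 < d i) (g : ip b b = 2) (ij : i ≠ j) (hi : b i ≠ 0) (hj : b j ≠ 0) (h0 : ip b d = 0) :
    d i = d j ∧ b j = -b i ∧ ∀ T : ι → ℚ, ∑ m, b m * T m = 0 → T i = T j := by
  classical
  rw [ip2 g ij hi hj] at h0
  have := hd i
  have := hd j
  have e : d i = d j ∧ b j = -b i := by
    obtain a | a | a := pm g (by decide) i <;> obtain c | c | c := pm g (by decide) j <;>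
      rw [a, c] at h0 <;> omega
  refine ⟨e.1, e.2, fun T h => ?_⟩
  rw [sum_supp (n := 2) g (by decide) (card_pair ij) (by simp [hi, hj]) _ fun l e => by simp [e],
    sum_pair ij, e.2] at h
  push_cast at h
  exact mul_left_cancel₀ (Int.cast_ne_zero.2 hi : (b i : ℚ) ≠ 0) (by linear_combination h)

end PL

open PL in
theorem lat {ι : Type*} [Fintype ι] {d b1 b2 b3 b4 b5 b6 : ι → ℤ} {T S : ι → ℚ} {o : ι} {κ : ℚ} (hκ : κ ≠ 0)
    (hd : ∀ i, 0 < d i) (o0 : d o = 1) (o1 : b1 o = 0) (o2 : b2 o = 0) (o3 : b3 o = 0) (o4 : b4 o = 1)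
    (o5 : b5 o = 1) (o6 : b6 o = 0) (g11 : ip b1 b1 = 2) (g22 : ip b2 b2 = 3) (g33 : ip b3 b3 = 3)
    (g44 : ip b4 b4 = 4) (g55 : ip b5 b5 = 4) (g66 : ip b6 b6 = 4) (g12 : ip b1 b2 = 1) (g13 : ip b1 b3 = -1)
    (g14 : ip b1 b4 = 0) (g15 : ip b1 b5 = 1) (g16 : ip b1 b6 = 0) (g23 : ip b2 b3 = -1) (g24 : ip b2 b4 = 1)
    (g25 : ip b2 b5 = 1) (g26 : ip b2 b6 = 1) (g34 : ip b3 b4 = 1) (g35 : ip b3 b5 = -1) (g36 : ip b3 b6 = 1)
    (g45 : ip b4 b5 = 1) (g46 : ip b4 b6 = 1) (h1 : R d T S κ b1 0 0 0) (h2 : R d T S κ b2 (8 / 3) 0 0)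
    (h3 : R d T S κ b3 0 0 (2 / 3)) (h4 : R d T S κ b4 (8 / 3) (4 / 3) (4 / 3))
    (h5 : R d T S κ b5 (8 / 3) 0 2) (h6 : R d T S κ b6 (8 / 3) (-4 / 3) (4 / 3)) : ∃ i, d i = 3 := by
  classical
  have m1 := pm g11 (by decide)
  have m2 := pm g22 le_rfl
  have m3 := pm g33 le_rfl
  have m : ∀ {b : ι → ℤ}, ip b b = 4 → ip b d = 0 → ∀ i, b i = 0 ∨ b i = 1 ∨ b i = -1 := fun g h i => by
    have := N9.pm4 hd g h i; omega
  have m4 := m g44 h4.1
  have m5 := m g55 h5.1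
  have m6 := m g66 h6.1
  obtain ⟨A, B, AB, A1, B1, A2, B2⟩ : ∃ A B, A ≠ B ∧ b1 A ≠ 0 ∧ b1 B ≠ 0 ∧ b2 A = b1 A ∧ b2 B = 0 := by
    obtain ⟨i, i1, -⟩ := ex_more (n := 2) g11 (by decide) ∅ (by simp)
    obtain ⟨j, j1, j2⟩ := ex_more (n := 2) g11 (by decide) {i} (by simp)
    have ij : i ≠ j := fun e => j2 (by simp [e])
    rw [ip2 g11 ij i1 j1] at g12
    obtain e | e := one_of (m1 i) (m2 i) (m1 j) (m2 j) i1 j1 g12
    exacts [⟨i, j, ij, i1, j1, e⟩, ⟨j, i, ij.symm, j1, i1, e.symm⟩]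
  obtain ⟨dAB, bAB, hAB⟩ := pair2 hd g11 AB A1 B1 h1.1
  have TAB := hAB T h1.2.1
  have SAB := hAB S h1.2.2.1
  have kA : κ / d A ≠ 0 := div_ne_zero hκ (Int.cast_ne_zero.2 (hd A).ne')
  have zA : ∀ {b : ι → ℤ} {X Y Z : ℚ}, X * Z - Y ^ 2 ≠ 0 → ip b b = 4 → R d T S κ b X Y Z → ip b1 b = 0 →
      b A = 0 := fun {b X Y Z} n g h e => by
    by_contra hA
    rw [ip2 g11 AB A1 B1, bAB, neg_mul, add_neg_eq_zero, mul_right_inj' A1] at e
    have := pair4 hκ hd g h AB hA (e ▸ hA)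
    rw [← e, ← dAB, TAB, SAB] at this
    exact mul_ne_zero n (mul_ne_zero (Int.cast_ne_zero.2 hA) kA) (by linear_combination -this / 2)
  have A4 := zA (by norm_num) g44 h4 g14
  have A6 := zA (by norm_num) g66 h6 g16
  obtain ⟨E, C, s2, E4, C4⟩ : ∃ E C, S3 b2 A E C ∧ b4 E = b2 E ∧ b4 C = 0 := by
    obtain ⟨p, q, s⟩ := ex3' (i := A) g22 (A2 ▸ A1)
    obtain e | e := one_of (m2 p) (m4 p) (m2 q) (m4 q) s.hj s.hk (by simpa [s.ip, A4] using g24)
    exacts [⟨p, q, s, e⟩, ⟨q, p, s.swap, e.symm⟩]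
  have rot : ∀ {b : ι → ℤ} {i j k}, S3 b i j k → S3 b j k i := fun s =>
    ⟨s.jk, s.ij.symm, s.ik.symm, s.hj, s.hk, s.hi, s.n⟩
  have sq0 : ∀ {x y z : ℚ}, (x - y) ^ 2 = 0 * z → y = x := fun h =>
    (sub_eq_zero.1 (pow_eq_zero_iff two_ne_zero |>.1 (h.trans (zero_mul _)))).symm
  obtain ⟨xE, nE⟩ := pair3 hκ hd s2 h2.1 h2.2.1 h2.2.2.2.1
  obtain ⟨xC, nC⟩ := pair3 hκ hd s2.swap h2.1 h2.2.1 h2.2.2.2.1
  have xEC := (pair3 hκ hd (rot s2) h2.1 h2.2.1 h2.2.2.2.1).1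
  have yE := sq0 (pair3 hκ hd s2 h2.1 h2.2.2.1 h2.2.2.2.2.2).1
  have yC := sq0 (pair3 hκ hd s2.swap h2.1 h2.2.2.1 h2.2.2.2.2.2).1
  have yB : S B / d B = S A / d A := by rw [SAB, dAB]
  have d3 : ∀ i j, i ≠ j → b3 i ≠ 0 → b3 j ≠ 0 → S i / d i ≠ S j / d j := fun i j ij hi hj e => by
    obtain ⟨k, s⟩ := ex3 g33 ij hi hj
    obtain ⟨a1, a2⟩ := pair3 hκ hd s h3.1 h3.2.2.1 h3.2.2.2.2.2
    exact a2 (by rw [e] at a1; linear_combination -3 / 2 * a1)
  have BE : B ≠ E := by rintro rfl; exact s2.hj B2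
  have BC : B ≠ C := by rintro rfl; exact s2.hk B2
  have A3 : b3 A = -b1 A := by
    have a1 := g13
    rw [ip2 g11 AB A1 B1, bAB] at a1
    by_cases hB : b3 B = 0
    · rw [hB] at a1
      obtain e | e | e := m1 A <;> rw [e] at a1 ⊢ <;> omega
    · have z : ∀ i, B ≠ i → S i / d i = S A / d A → b3 i = 0 := fun i hi e => by
        by_contra h
        exact d3 B i hi hB h (yB.trans e.symm)
      rw [s2.ip, z A AB.symm rfl, z E BE yE, z C BC yC] at g23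
      omega
  have A3' : b3 A ≠ 0 := by rw [A3]; exact neg_ne_zero.2 A1
  obtain ⟨G, F, s3, G4, F4⟩ : ∃ G F, S3 b3 A G F ∧ b4 G = b3 G ∧ b4 F = 0 := by
    obtain ⟨p, q, s⟩ := ex3' (i := A) g33 A3'
    obtain e | e := one_of (m3 p) (m4 p) (m3 q) (m4 q) s.hj s.hk (by simpa [s.ip, A4] using g34)
    exacts [⟨p, q, s, e⟩, ⟨q, p, s.swap, e.symm⟩]
  obtain ⟨yG, nG⟩ := pair3 hκ hd s3 h3.1 h3.2.2.1 h3.2.2.2.2.2
  obtain ⟨yF, nF⟩ := pair3 hκ hd s3.swap h3.1 h3.2.2.1 h3.2.2.2.2.2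
  have yFG := (pair3 hκ hd (rot s3) h3.1 h3.2.2.1 h3.2.2.2.2.2).1
  have xG := sq0 (pair3 hκ hd s3 h3.1 h3.2.1 h3.2.2.2.1).1
  have xF := sq0 (pair3 hκ hd s3.swap h3.1 h3.2.1 h3.2.2.2.1).1
  have nn : ∀ {i j}, S i / d i = S A / d A → A ≠ j → b3 j ≠ 0 → i ≠ j := by
    rintro i _ e a1 a2 rfl
    exact d3 A i a1 A3' a2 e.symm
  have EG := nn yE s3.ij s3.hj
  have EF := nn yE s3.ik s3.hk
  have CG := nn yC s3.ij s3.hj
  have CF := nn yC s3.ik s3.hk
  have p1 := pair4 hκ hd g44 h4 EG (E4 ▸ s2.hj) (G4 ▸ s3.hj)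
  have p2 := pair4 hκ hd g44 h4 (i := o) (j := E) (by rintro rfl; exact s2.hj o2) (by omega) (E4 ▸ s2.hj)
  have p3 := pair4 hκ hd g44 h4 (i := o) (j := G) (by rintro rfl; exact s3.hj o3) (by omega) (G4 ▸ s3.hj)
  have kA' : b1 A * (κ / d A) ≠ 0 := mul_ne_zero (Int.cast_ne_zero.2 A1) kA
  have A5 : b5 A = b1 A := by
    have a1 := g15
    rw [ip2 g11 AB A1 B1] at a1
    refine ((one_of (m1 A) (m5 A) (m1 B) (m5 B) A1 B1 a1).resolve_right fun ⟨a2, a3⟩ => kA' ?_).1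
    obtain ⟨e, -⟩ | ⟨-, e⟩ := one_of (m2 E) (m5 E) (m2 C) (m5 C) s2.hj s2.hk (by simpa [s2.ip, a2] using g25)
    · have := pair4 hκ hd g55 h5 BE (a3 ▸ B1) (e ▸ s2.hj)
      rw [yE, yB, e, a3, bAB, ← TAB, ← dAB] at this
      rw [A2] at xE
      push_cast at this
      linear_combination 3 / 32 * this - 3 / 16 * xE
    · have := pair4 hκ hd g55 h5 BC (a3 ▸ B1) (e ▸ s2.hk)
      rw [yC, yB, e, a3, bAB, ← TAB, ← dAB] at this
      rw [A2] at xC
      push_cast at this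
      linear_combination 3 / 32 * this - 3 / 16 * xC
  have p4 := pair4 hκ hd g55 h5 (i := o) (j := A) (by rintro rfl; exact A1 o1) (by omega) (A5 ▸ A1)
  have ne0 : ∀ {x y z w : ℚ}, (x - y) ^ 2 = z * w → z ≠ 0 → w ≠ 0 → y - x ≠ 0 := fun h a1 a2 e =>
    mul_ne_zero a1 a2 (by rw [← h, ← neg_sub, e]; simp)
  rw [E4, G4, yE, xG] at p1
  rw [E4, o4, o0, yE] at p2
  rw [G4, o4, o0, xG] at p3
  rw [A5, o5, o0] at p4
  have e0 := ne0 xE (by norm_num) nE
  have c0 := ne0 xC (by norm_num) nC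
  have f0 := ne0 yF (by norm_num) nF
  have g0 := ne0 yG (by norm_num) nG
  rw [A2] at xE xC
  rw [A3] at yG yF
  push_cast at p2 p3 p4 yG yF
  have fin := arith (κ := κ) (α := b1 A * (κ / d A)) (KE := b2 E * (κ / d E)) (KC := b2 C * (κ / d C))
    (KF := b3 F * (κ / d F)) (KG := b3 G * (κ / d G)) (s := T o / 1 - T A / d A) (t := S o / 1 - S A / d A)
    e0 c0 f0 g0 (by linear_combination 3 / 8 * xE) (by linear_combination 3 / 8 * xC)
    (by linear_combination 3 / 8 * xEC) (by linear_combination 3 / 2 * yF) (by linear_combination 3 / 2 * yG)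
    (by linear_combination 3 / 2 * yFG) (by linear_combination 9 / 16 * p1) (by linear_combination 9 / 16 * p2)
    (by linear_combination 9 / 16 * p3) (by linear_combination 3 / 16 * p4) (by
      obtain ⟨e, -⟩ | ⟨-, e⟩ := one_of (m2 E) (m6 E) (m2 C) (m6 C) s2.hj s2.hk (by simpa [s2.ip, A6] using g26) <;>
        obtain ⟨e', -⟩ | ⟨-, e'⟩ := one_of (m3 G) (m6 G) (m3 F) (m6 F) s3.hj s3.hk
          (by simpa [s3.ip, A6] using g36)
      · have := pair4 hκ hd g66 h6 EG (e ▸ s2.hj) (e' ▸ s3.hj)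
        rw [e, e', yE, xG] at this
        exact Or.inl (by linear_combination 9 / 16 * this)
      · have := pair4 hκ hd g66 h6 EF (e ▸ s2.hj) (e' ▸ s3.hk)
        rw [e, e', yE, xF] at this
        exact Or.inr (Or.inr (Or.inr (by linear_combination 9 / 16 * this)))
      · have := pair4 hκ hd g66 h6 CG (e ▸ s2.hk) (e' ▸ s3.hj)
        rw [e, e', yC, xG] at this
        exact Or.inr (Or.inr (Or.inl (by linear_combination 9 / 16 * this)))
      · have := pair4 hκ hd g66 h6 CF (e ▸ s2.hk) (e' ▸ s3.hk)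
        rw [e, e', yC, xF] at this
        exact Or.inr (Or.inl (by linear_combination 9 / 16 * this)))
  have n' : ∀ m, (d m : ℚ) ≠ 0 := fun m => Int.cast_ne_zero.2 (hd m).ne'
  rcases fin with e | e
  · have a1 : (2 * b2 E : ℚ) = 3 * d E := mul_left_cancel₀ hκ (by
      have := n' E; field_simp at e; linear_combination κ * e)
    have a2 : 2 * b2 E = 3 * d E := by exact_mod_cast a1
    have := hd E
    have := m2 E
    omega
  · have a1 : (3 * b3 G : ℚ) = d G := mul_left_cancel₀ hκ (by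
      have := n' G; field_simp at e; linear_combination κ * e)
    have a2 : 3 * b3 G = d G := by exact_mod_cast a1
    have := hd G
    have := m3 G
    exact ⟨G, by omega⟩

end Cfsg.Agent.NA9
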