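import Mathlib

/-! The model `3³ : S₄` of the normalizer in `A₉` of its elementary abelian subgroup of order 27 -/

set_option autoImplicit false

namespace Cfsg.Agent.NA9

open Equiv

abbrev Z27 := ZMod 3 × ZMod 3 × ZMod 3
abbrev V := Multiplicative Z27
abbrev S4 := Perm (Fin 4)

def dg : Fin 4 → Z27
  | 0 => (1, 1, 1)
  | 1 => (1, -1, -1)
  | 2 => (-1, 1, -1)
  | 3 => (-1, -1, 1)

/-- parity of the number of inversions -/
def od (σ : S4) : Bool :=
  (decide (σ 1 < σ 0) ^^ decide (σ 2 < σ 0)) ^^ (decide (σ 3 < σ 0) ^^ decide (σ 2 < σ 1)) ^^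
    (decide (σ 3 < σ 1) ^^ decide (σ 3 < σ 2))

def act0 (a b c d : Z27) (v : Z27) : Z27 :=
  (v.1 * (a.1 + b.1) + v.2.1 * (a.1 + c.1) + v.2.2 * (a.1 + d.1),
    v.1 * (a.2.1 + b.2.1) + v.2.1 * (a.2.1 + c.2.1) + v.2.2 * (a.2.1 + d.2.1),
    v.1 * (a.2.2 + b.2.2) + v.2.1 * (a.2.2 + c.2.2) + v.2.2 * (a.2.2 + d.2.2))

def act (σ : S4) (v : Z27) : Z27 :=
  act0 (dg (σ 0)) (dg (σ 1)) (dg (σ 2)) (dg (σ 3)) (if od σ then v else -v)

theorem act_add (σ : S4) (v w : Z27) : act σ (v + w) = act σ v + act σ w := by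
  unfold act act0
  split_ifs <;> ext <;> simp <;> ring

theorem act_gen (v : Z27) :
    v = v.1.val • (1, 0, 0) + v.2.1.val • (0, 1, 0) + v.2.2.val • (0, 0, 1) := by
  revert v; decide +kernel

theorem act_nsmul (σ : S4) (n : ℕ) (v : Z27) : act σ (n • v) = n • act σ v := by
  induction n with
  | zero => simp only [zero_smul]; unfold act act0; split_ifs <;> ext <;> simp
  | succ n ih => rw [succ_nsmul, act_add, ih, succ_nsmul]

theorem act_mul0 : ∀ σ τ : S4, act (σ * τ) (1, 0, 0) = act σ (act τ (1, 0, 0)) ∧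
    act (σ * τ) (0, 1, 0) = act σ (act τ (0, 1, 0)) ∧
    act (σ * τ) (0, 0, 1) = act σ (act τ (0, 0, 1)) := by decide +kernel

theorem act_mul (σ τ : S4) (v : Z27) : act (σ * τ) v = act σ (act τ v) := by
  obtain ⟨a, b, c⟩ := act_mul0 σ τ
  rw [act_gen v]
  simp only [act_add, act_nsmul, a, b, c]

theorem act_one : ∀ v, act 1 v = v := by decide +kernel

def ph : S4 →* MulAut V :=
  MonoidHom.mk' (fun g => ⟨⟨fun v => .ofAdd (act g v.toAdd), fun v => .ofAdd (act g⁻¹ v.toAdd),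
    fun v => by simp [← act_mul, act_one], fun v => by simp [← act_mul, act_one]⟩,
    fun v w => by simp [act_add]⟩) fun g h => MulEquiv.ext fun v => by simp [act_mul]

abbrev W := V ⋊[ph] S4

instance : Fintype W := Fintype.ofEquiv _ SemidirectProduct.equivProd.symm

theorem cardW : Fintype.card W = 648 := by
  rw [Fintype.ofEquiv_card, Fintype.card_prod, Fintype.card_perm]; rfl

/-- the element `(v, σ)` -/
def mk (a b c : ZMod 3) (σ : S4) : W := ⟨.ofAdd (a, b, c), σ⟩

def z : W := mk 0 0 0 (swap 0 1 * swap 2 3)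
def u : W := mk 0 0 0 (swap 2 3)
def j1 : W := mk 1 0 0 1
def j2 : W := mk 0 1 (-1) 1
def j3 : W := mk 1 1 1 1

/-- the special elements: the `3`-part is a nontrivial element of `J` -/
def A (w : W) : Prop := ((w ^ 4).right = 1 ∧ w ^ 4 ≠ 1) ∨ ((w ^ 3).right = 1 ∧ w ^ 3 ≠ 1)

instance : DecidablePred A := fun _ => by unfold A; infer_instance

variable {G : Type*} [Group G]

/-- `f` embeds the model so that the hypotheses of the theorem hold -/
structure Md (f : W →* G) : Prop where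
  inj : Function.Injective f
  cent : ∀ (v : W) (g : G), v.right = 1 → v ≠ 1 → g * f v = f v * g → ∃ n, f n = g
  sc : ∀ (v m : W) (g : G), v.right = 1 → g * f v * g⁻¹ = f m → m.right = 1

end Cfsg.Agent.NA9
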